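import Cfsg.Agent.H172.DG.Graph
import Cfsg.Agent.H230.GenPslFin
import Cfsg.Agent.H891.DG.Defs

/-!
# TEAM GEN, S4180: row `PSL_n(q)`, `n ≥ 3`, of `Rows Cos2` (helper172)
-/

set_option autoImplicit false

namespace Cfsg.Agent.H172.DG

open Matrix Cfsg.Agent.H891.Gen Cfsg.Agent.H891.DG Cfsg.Agent.H99.GenSL
open Cfsg.Agent.ClassicalGeometry.AutPSL.Root Cfsg.Agent.ClassicalGeometry.AutPSL.Auto
open Cfsg.Agent.ClassicalGeometry.AutPSL.Main Cfsg.Agent.H230.GenPsl

universe u

/-! ### general facts on `Lift` and `Cos2` -/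

theorem lift_of_mul_inv {G : Type*} [Group G] {N : Subgroup G} (hN : N.Normal) {x y : G} (h : Lift N x (y * x⁻¹)) :
    Lift N x y := by
  obtain ⟨s, hs, t, ht, h⟩ := h
  refine ⟨s, hs, x⁻¹ * t * x * s, N.mul_mem (by have := hN.conj_mem t ht x⁻¹; rwa [inv_inv] at this) hs,
    h.trans ?_⟩
  rw [Subgroup.closure_le]
  have h1 : x * s ∈ Subgroup.closure ({x * s, y * (x⁻¹ * t * x * s)} : Set G) := Subgroup.subset_closure (by simp)
  have h2 : y * (x⁻¹ * t * x * s) ∈ Subgroup.closure ({x * s, y * (x⁻¹ * t * x * s)} : Set G) :=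
    Subgroup.subset_closure (by simp)
  rintro z (rfl | hz)
  · exact h1
  · rw [Set.mem_singleton_iff] at hz
    subst hz
    have h3 := mul_mem h2 (inv_mem h1)
    have h4 : y * (x⁻¹ * t * x * s) * (x * s)⁻¹ = y * x⁻¹ * t := by group
    rwa [h4] at h3

theorem inn_normal (T : Type*) [Group T] : (MulAut.conj : T →* MulAut T).range.Normal := by
  constructor
  rintro _ ⟨t, rfl⟩ a
  refine ⟨a t, ?_⟩
  apply MulEquiv.ext
  intro x
  simp [MulAut.conj_apply, MulAut.mul_apply, map_mul, map_inv]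

/-- `Cos2` is invariant under isomorphisms. -/
theorem cos2_congr {T T' : Type*} [Group T] [Group T'] (e : T ≃* T')
    (h : ∀ x y : MulAut T', Lift (MulAut.conj : T' →* MulAut T').range x y) :
    ∀ x y : MulAut T, Lift (MulAut.conj : T →* MulAut T).range x y := by
  intro x y
  refine lift_of_map (MulAut.congr e).toMonoidHom (MulAut.congr e).injective ?_
  have h1 : (MulAut.conj : T →* MulAut T).range.map (MulAut.congr e).toMonoidHom =
      (MulAut.conj : T' →* MulAut T').range := by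
    ext a
    constructor
    · rintro ⟨_, ⟨t, rfl⟩, rfl⟩
      refine ⟨e t, ?_⟩
      apply MulEquiv.ext
      intro b
      show e t * b * (e t)⁻¹ = e (t * e.symm b * t⁻¹)
      rw [map_mul, map_mul, map_inv, e.apply_symm_apply]
    · rintro ⟨t, rfl⟩
      refine ⟨MulAut.conj (e.symm t), ⟨_, rfl⟩, ?_⟩
      apply MulEquiv.ext
      intro b
      show e (e.symm t * e.symm b * (e.symm t)⁻¹) = t * b * t⁻¹
      rw [map_mul, map_mul, map_inv, e.apply_symm_apply, e.apply_symm_apply]
  rw [h1]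
  exact h _ _

/-! ### the automorphisms of `SL` -/

section Aut

variable {ι F : Type*} [Fintype ι] [DecidableEq ι] [Field F]

theorem itr_mul_cj (A : GL ι F) : (itr * cj A : MulAut (SpecialLinearGroup ι F)) = cj (itg A) * itr := by
  apply MulEquiv.ext
  intro s
  apply Subtype.ext
  show (((cj A s)⁻¹ : SpecialLinearGroup ι F) : Matrix ι ι F)ᵀ = _
  rw [← map_inv, coe_cj, transpose_mul, transpose_mul, ← mul_assoc]
  rfl

theorem itr_mul_fld (σ : F ≃+* F) : (itr * fld σ : MulAut (SpecialLinearGroup ι F)) = fld σ * itr := by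
  apply MulEquiv.ext
  intro s
  apply Subtype.ext
  ext a b
  show (((fld σ s)⁻¹ : SpecialLinearGroup ι F) : Matrix ι ι F) b a = _
  rw [← map_inv]
  rfl

end Aut

/-! ### the group `PSL` -/

section PSL

variable {F : Type} [Field F] {d : ℕ}

/-- automorphisms with field part `σ` -/
def FP (σ : F ≃+* F) (x : MulAut (ProjectiveSpecialLinearGroup (Fin d) F)) : Prop :=
  ∃ B : GL (Fin d) F, x = lift (cj B * fld σ) ∨ x = lift (cj B * fld σ * itr)

theorem fld_cj (σ τ : F ≃+* F) (B C : GL (Fin d) F) :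
    (cj B * fld σ * (cj C * fld τ) : MulAut (SpecialLinearGroup (Fin d) F)) =
      cj (B * GeneralLinearGroup.map (σ : F →+* F) C) * fld (σ * τ) := by
  rw [map_mul, map_mul, mul_assoc, ← mul_assoc (fld σ), fld_mul_cj]
  simp only [mul_assoc]

theorem itr_cj_fld (τ : F ≃+* F) (C : GL (Fin d) F) :
    (itr * (cj C * fld τ) : MulAut (SpecialLinearGroup (Fin d) F)) = cj (itg C) * fld τ * itr := by
  rw [← mul_assoc, itr_mul_cj, mul_assoc, itr_mul_fld, mul_assoc]

theorem FP.mul {σ τ : F ≃+* F} {x y : MulAut (ProjectiveSpecialLinearGroup (Fin d) F)} (hx : FP σ x) (hy : FP τ y) :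
    FP (σ * τ) (x * y) := by
  obtain ⟨B, hB⟩ := hx
  obtain ⟨C, hC⟩ := hy
  rcases hB with rfl | rfl <;> rcases hC with rfl | rfl
  · exact ⟨_, Or.inl (by rw [← map_mul, fld_cj])⟩
  · exact ⟨_, Or.inr (by rw [← map_mul, ← mul_assoc, fld_cj])⟩
  · exact ⟨_, Or.inr (by rw [← map_mul, mul_assoc _ itr, itr_cj_fld, ← mul_assoc, fld_cj])⟩
  · exact ⟨_, Or.inl (by
      rw [← map_mul, ← mul_assoc, mul_assoc _ itr, itr_cj_fld, ← mul_assoc, fld_cj, mul_assoc _ itr, itr_mul_itr,
        mul_one])⟩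

theorem FP.inv {σ : F ≃+* F} {x : MulAut (ProjectiveSpecialLinearGroup (Fin d) F)} (hx : FP σ x) :
    FP σ⁻¹ x⁻¹ := by
  obtain ⟨B, hB⟩ := hx
  have h1 : (cj B * fld σ : MulAut (SpecialLinearGroup (Fin d) F))⁻¹ =
      cj (GeneralLinearGroup.map ((σ⁻¹ : F ≃+* F) : F →+* F) B⁻¹) * fld σ⁻¹ := by
    rw [_root_.mul_inv_rev, ← map_inv, ← map_inv, fld_mul_cj]
  have h2 : (itr : MulAut (SpecialLinearGroup (Fin d) F))⁻¹ = itr := inv_eq_of_mul_eq_one_left itr_mul_itr
  rcases hB with rfl | rfl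
  · exact ⟨_, Or.inl (by rw [← map_inv, h1])⟩
  · exact ⟨_, Or.inr (by rw [← map_inv, _root_.mul_inv_rev, h1, h2, itr_cj_fld])⟩

theorem range_eq : ((lift.comp cj).comp SpecialLinearGroup.toGL :
      SpecialLinearGroup (Fin d) F →* MulAut (ProjectiveSpecialLinearGroup (Fin d) F)).range =
      (MulAut.conj : ProjectiveSpecialLinearGroup (Fin d) F →* _).range := by
  ext x
  constructor
  · rintro ⟨s, rfl⟩
    exact ⟨pr s, (lift_cj_toGL s).symm⟩
  · rintro ⟨p, rfl⟩
    obtain ⟨s, rfl⟩ := pr_surjective p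
    exact ⟨s, lift_cj_toGL s⟩

theorem tv_inj {a b : Fin d} (hab : a ≠ b) (s : F) (hs : (lift.comp cj) (tv hab s) = 1) : s = 0 := by
  have : Nontrivial (Fin d) := ⟨⟨a, b, hab⟩⟩
  have h2 : lift (cj (tv hab s) * fld (1 : F ≃+* F)) = lift (fld (1 : F ≃+* F)) := by
    rw [map_mul]
    change (lift.comp cj) _ * _ = _
    rw [hs, one_mul]
  obtain ⟨⟨r, hr⟩, -⟩ := injective_aux h2
  have h3 := congrFun (congrFun hr a) b
  rw [coe_tv] at h3
  simpa [hab] using h3.symm

variable [Fintype F]

/-- pairs with trivial field part of the first automorphism -/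
theorem lift_base (hd : 3 ≤ d) {τ : F ≃+* F} {x y : MulAut (ProjectiveSpecialLinearGroup (Fin d) F)} (hx : FP 1 x)
    (hy : FP τ y) : Lift (MulAut.conj : ProjectiveSpecialLinearGroup (Fin d) F →* _).range x y := by
  obtain ⟨n, rfl⟩ : ∃ n, d = n + 1 := ⟨d - 1, by omega⟩
  have hfg : ∀ (τ : F ≃+* F) (A : GL (Fin (n + 1)) F), lift (fld τ * itr) * (lift.comp cj) A * (lift (fld τ * itr))⁻¹ =
      (lift.comp cj) (itg (GeneralLinearGroup.map (τ : F →+* F) A)) := by
    intro τ A
    rw [mul_inv_eq_iff_eq_mul]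
    change lift (fld τ * itr) * lift (cj A) = lift (cj _) * lift (fld τ * itr)
    rw [← map_mul, ← map_mul, mul_assoc, itr_mul_cj, ← mul_assoc, fld_mul_cj, itg_map, mul_assoc]
  have hff : ∀ (τ : F ≃+* F) (A : GL (Fin (n + 1)) F), lift (fld τ) * (lift.comp cj) A * (lift (fld τ))⁻¹ =
      (lift.comp cj) (GeneralLinearGroup.map (τ : F →+* F) A) := by
    intro τ A
    rw [mul_inv_eq_iff_eq_mul]
    change lift (fld τ) * lift (cj A) = lift (cj _) * lift (fld τ)
    rw [← map_mul, ← map_mul, fld_mul_cj]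
  have case2 : ∀ (A B : GL (Fin (n + 1)) F) (τ : F ≃+* F),
      Lift (MulAut.conj : ProjectiveSpecialLinearGroup (Fin (n + 1)) F →* _).range (lift (cj A))
        (lift (cj B * fld τ * itr)) := by
    intro A B τ
    have h1 := lift_graph (by omega) (hfg τ) (fun a b hab s hs => tv_inj hab s hs) A B
    rw [range_eq] at h1
    change Lift _ (lift (cj A)) (lift (cj B) * lift (fld τ * itr)) at h1
    rwa [← map_mul, ← mul_assoc] at h1
  have case3 : ∀ (A B : GL (Fin (n + 1)) F) (τ : F ≃+* F),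
      Lift (MulAut.conj : ProjectiveSpecialLinearGroup (Fin (n + 1)) F →* _).range (lift (cj A * itr))
        (lift (cj B * fld τ)) := by
    intro A B τ
    rcases Nat.lt_or_ge (Fintype.card F) 3 with hF | hF
    · have hτ : τ = 1 := by
        apply RingEquiv.ext
        intro s
        rcases two_elements hF s with rfl | rfl
        · rw [map_zero, map_zero]
        · rw [map_one, map_one]
      subst hτ
      have h1 := (case2 B A 1).symm
      rwa [map_one, mul_one] at h1 ⊢
    · have h1 := lift_graph_left (by omega) hF (g := lift itr) (f := lift (fld τ)) (j := lift.comp cj)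
        (fun A => by
          have h2 := hfg 1 A
          have h3 : GeneralLinearGroup.map ((1 : F ≃+* F) : F →+* F) A = A := by
            apply Units.ext
            ext a b
            rfl
          rwa [map_one, one_mul, h3] at h2)
        (by rw [← map_mul, itr_mul_itr, map_one]) (hff τ) (fun a b hab s hs => tv_inj hab s hs) A B
      rw [range_eq] at h1
      change Lift _ (lift (cj A) * lift itr) (lift (cj B) * lift (fld τ)) at h1
      rwa [← map_mul, ← map_mul] at h1
  obtain ⟨A, hA⟩ := hx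
  obtain ⟨B, hB⟩ := hy
  rw [map_one, mul_one] at hA
  rcases hA with rfl | rfl <;> rcases hB with rfl | rfl
  · exact (liftPSL F hd B A τ).symm
  · exact case2 A B τ
  · exact case3 A B τ
  · refine lift_of_mul_inv (inn_normal _) ?_
    have h1 : (lift (cj B * fld τ * itr) * (lift (cj A * itr))⁻¹ :
        MulAut (ProjectiveSpecialLinearGroup (Fin (n + 1)) F)) =
        lift (cj (B * GeneralLinearGroup.map (τ : F →+* F) A⁻¹) * fld τ) := by
      rw [← map_inv, ← map_mul]
      congr 1
      have h2 : (cj B * fld τ * itr * (cj A * itr)⁻¹ : MulAut (SpecialLinearGroup (Fin (n + 1)) F)) =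
          cj B * fld τ * (cj A⁻¹ * fld 1) := by
        rw [map_inv, map_one]
        group
      rw [h2, fld_cj, mul_one]
    rw [h1]
    exact case3 A _ τ

theorem cos2_psl (hd : 3 ≤ d) (x y : MulAut (ProjectiveSpecialLinearGroup (Fin d) F)) :
    Lift (MulAut.conj : ProjectiveSpecialLinearGroup (Fin d) F →* _).range x y := by
  have hfin : Finite (F ≃+* F) := Finite.of_injective (fun e : F ≃+* F => (e : F → F)) DFunLike.coe_injective
  have := isCyclic_ringAut F
  obtain ⟨σ₀, hσ₀⟩ := IsCyclic.exists_monoid_generator (α := F ≃+* F)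
  have hFP : ∀ x : MulAut (ProjectiveSpecialLinearGroup (Fin d) F), ∃ a : ℕ, FP (σ₀ ^ a) x := by
    intro x
    obtain ⟨p, hp⟩ := CharP.exists F
    have : Fact p.Prime := ⟨CharP.char_is_prime F p⟩
    rcases surj_three p hd x with ⟨B, σ, h⟩ | ⟨B, σ, h⟩
    · obtain ⟨a, ha⟩ := hσ₀ σ
      exact ⟨a, B, Or.inl (by rw [h, ← ha])⟩
    · obtain ⟨a, ha⟩ := hσ₀ σ
      exact ⟨a, B, Or.inr (by rw [h, ← ha])⟩
  have key : ∀ (N a b : ℕ), a + b ≤ N → ∀ x y : MulAut (ProjectiveSpecialLinearGroup (Fin d) F),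
      FP (σ₀ ^ a) x → FP (σ₀ ^ b) y →
        Lift (MulAut.conj : ProjectiveSpecialLinearGroup (Fin d) F →* _).range x y := by
    intro N
    induction N with
    | zero =>
      intro a b hab x y hx hy
      have ha : a = 0 := by omega
      subst ha
      rw [pow_zero] at hx
      exact lift_base hd hx hy
    | succ N ih =>
      have sub : ∀ (a b : ℕ) (x y : MulAut (ProjectiveSpecialLinearGroup (Fin d) F)), a ≤ b → FP (σ₀ ^ a) x →
          FP (σ₀ ^ b) y → FP (σ₀ ^ (b - a)) (y * x⁻¹) := by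
        intro a b x y hab hx hy
        have h1 := hy.mul hx.inv
        have h2 : σ₀ ^ b * (σ₀ ^ a)⁻¹ = σ₀ ^ (b - a) := by
          rw [mul_inv_eq_iff_eq_mul, ← pow_add]
          congr 1
          omega
        rwa [h2] at h1
      intro a b hab x y hx hy
      rcases Nat.eq_zero_or_pos a with rfl | ha
      · rw [pow_zero] at hx
        exact lift_base hd hx hy
      · rcases Nat.eq_zero_or_pos b with rfl | hb
        · rw [pow_zero] at hy
          exact (lift_base hd hy hx).symm
        · rcases Nat.le_total a b with h | h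
          · exact lift_of_mul_inv (inn_normal _) (ih a (b - a) (by omega) x _ hx (sub a b x y h hx hy))
          · exact (lift_of_mul_inv (inn_normal _) (ih b (a - b) (by omega) y _ hy (sub b a y x h hy hx))).symm
  obtain ⟨a, ha⟩ := hFP x
  obtain ⟨b, hb⟩ := hFP y
  exact key _ a b le_rfl x y ha hb

end PSL

/-- **the field `psl` of `Rows Cos2`** -/
theorem cos2_psl_row : ∀ (T : Type u) [Group T] [Finite T] [IsSimpleGroup T] (F : Type) [Field F] [Fintype F] (n : ℕ),
    3 ≤ n → Nonempty (T ≃* Matrix.ProjectiveSpecialLinearGroup (Fin n) F) → Cos2 T := by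
  rintro T _ _ _ F _ _ n hn ⟨e⟩
  exact cos2_congr e (cos2_psl hn)

end Cfsg.Agent.H172.DG
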